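import Groth.Agent.Dual.H367.Dies
import Groth.Agent.Dcoh.DerAdj
import Groth.Agent.Cohder.KInjProd
import Mathlib.Algebra.Homology.DerivedCategory.ExactFunctor

/-!
# Deligne's formula, abstract assembly

`Φ : 𝒯 ⥤ 𝒯'` a functor, `G ⟶ I ⟶ P ⟶ G[1]` a distinguished triangle in `𝒯` such that `P` behaves like
the direct image of `Φ I`; `K : ℕᵒᵖ ⥤ 𝒯` an inverse system with
`colim Hom(K n, G) = 0 = colim Hom(K n, G[1])`.  Then maps `Φ F ⟶ Φ I` come from maps `K n ⟶ I`.
-/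

set_option autoImplicit false

universe w w' v v' u u'

open CategoryTheory CategoryTheory.Limits CategoryTheory.Pretriangulated Opposite

namespace Groth.Agent.Dual.H367.Assembly

open Groth.Agent.Dual.H367.Dies

section Tri

variable {T : Type u} [Category.{v} T] [Preadditive T] [HasZeroObject T] [HasShift T ℤ]
  [∀ n : ℤ, (shiftFunctor T n).Additive] [Pretriangulated T]
  {T' : Type u'} [Category.{v'} T'] [Preadditive T'] (Φ : T ⥤ T') [Φ.Additive]
  {G I P : T} (f : G ⟶ I) (g : I ⟶ P) (h : P ⟶ G⟦(1 : ℤ)⟧)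
  (hT : Triangle.mk f g h ∈ distTriang T) (K : ℕᵒᵖ ⥤ T)

include hT in
/-- Surjectivity. -/
theorem exists_map_eq {F : T} (ι : K.obj (op 0) ⟶ F) (ρ : Φ.obj P ⟶ Φ.obj I)
    (hρ : Φ.map g ≫ ρ = 𝟙 _) (hG : NoMap K (G⟦(1 : ℤ)⟧)) (b : F ⟶ P) :
    ∃ (n : ℕ) (φ : K.obj (op n) ⟶ I),
      Φ.map (K.map (homOfLE (Nat.zero_le n)).op ≫ ι) ≫ Φ.map b ≫ ρ = Φ.map φ := by
  obtain ⟨m, h0m, hm⟩ := hG 0 ((ι ≫ b) ≫ h)
  obtain ⟨φ, hφ⟩ := Triangle.coyoneda_exact₃ _ hT (K.map (homOfLE h0m).op ≫ ι ≫ b) (by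
    change (K.map (homOfLE h0m).op ≫ ι ≫ b) ≫ h = 0
    rw [Category.assoc]; exact hm)
  change K.obj (op m) ⟶ I at φ
  have hφ' : (K.map (homOfLE h0m).op ≫ ι ≫ b : K.obj (op m) ⟶ P) = φ ≫ g := hφ
  refine ⟨m, φ, ?_⟩
  calc Φ.map (K.map (homOfLE (Nat.zero_le m)).op ≫ ι) ≫ Φ.map b ≫ ρ
      = Φ.map (K.map (homOfLE h0m).op ≫ ι ≫ b) ≫ ρ := by
        rw [← Category.assoc, ← Φ.map_comp, Category.assoc]
    _ = Φ.map φ ≫ Φ.map g ≫ ρ := by rw [hφ', Φ.map_comp, Category.assoc]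
    _ = Φ.map φ := by rw [hρ, Category.comp_id]

include hT in
/-- Injectivity. -/
theorem exists_eq_of_map_eq (hG : NoMap K G) (n : ℕ)
    (hg : ∀ θ : K.obj (op n) ⟶ I, Φ.map θ = 0 → θ ≫ g = 0)
    (φ ψ : K.obj (op n) ⟶ I) (hφψ : Φ.map φ = Φ.map ψ) :
    ∃ (m : ℕ) (hnm : n ≤ m), K.map (homOfLE hnm).op ≫ φ = K.map (homOfLE hnm).op ≫ ψ := by
  have h1 : (φ - ψ) ≫ g = 0 := hg _ (by rw [Φ.map_sub, hφψ, sub_self])
  obtain ⟨δ, hδ⟩ := Triangle.coyoneda_exact₂ _ hT (φ - ψ) h1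
  change K.obj (op n) ⟶ G at δ
  change _ = δ ≫ f at hδ
  obtain ⟨m, hnm, hm⟩ := hG n δ
  refine ⟨m, hnm, ?_⟩
  rw [← sub_eq_zero, ← Preadditive.comp_sub, hδ, ← Category.assoc, hm, zero_comp]

end Tri

section Adj

open Groth.Agent.Dcoh.DerAdj Groth.Agent.Cohder.KInjProd DerivedCategory

variable {A : Type u} [Category.{v} A] [Abelian A] [HasDerivedCategory.{w} A]
  {B : Type u'} [Category.{v'} B] [Abelian B] [HasDerivedCategory.{w'} B]
  (r : A ⥤ B) [r.Additive] [PreservesFiniteLimits r] [PreservesFiniteColimits r]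
  (p : B ⥤ A) [p.Additive] (adj : r ⊣ p)
  (I : CochainComplex A ℤ)

/-- `r` on complexes. -/
noncomputable abbrev Rc : CochainComplex A ℤ ⥤ CochainComplex B ℤ :=
  r.mapHomologicalComplex (ComplexShape.up ℤ)

/-- `p` on complexes. -/
noncomputable abbrev Pc : CochainComplex B ℤ ⥤ CochainComplex A ℤ :=
  p.mapHomologicalComplex (ComplexShape.up ℤ)

/-- `r ⊣ p` on complexes. -/
noncomputable abbrev ad : Rc r ⊣ Pc p := adjCx adj (ComplexShape.up ℤ)

/-- `r` on the derived category is computed termwise. -/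
noncomputable abbrev er : Q ⋙ r.mapDerivedCategory ≅ Rc r ⋙ Q := r.mapDerivedCategoryFactors

theorem er_nat {M N : CochainComplex A ℤ} (f : M ⟶ N) :
    r.mapDerivedCategory.map (Q.map f) ≫ (er r).hom.app N =
      (er r).hom.app M ≫ Q.map ((Rc r).map f) := (er r).hom.naturality f

/-- The counit in the derived category. -/
noncomputable def ρ : r.mapDerivedCategory.obj (Q.obj ((Pc p).obj ((Rc r).obj I))) ⟶
    r.mapDerivedCategory.obj (Q.obj I) :=
  (er r).hom.app ((Pc p).obj ((Rc r).obj I)) ≫ Q.map ((ad r p adj).counit.app ((Rc r).obj I)) ≫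
    (er r).inv.app I

theorem unit_ρ : r.mapDerivedCategory.map (Q.map ((ad r p adj).unit.app I)) ≫ ρ r p adj I = 𝟙 _ := by
  have h1 : (Rc r).map ((ad r p adj).unit.app I) ≫ (ad r p adj).counit.app ((Rc r).obj I) = 𝟙 _ :=
    (ad r p adj).left_triangle_components I
  calc r.mapDerivedCategory.map (Q.map ((ad r p adj).unit.app I)) ≫ ρ r p adj I
      = (r.mapDerivedCategory.map (Q.map ((ad r p adj).unit.app I)) ≫
          (er r).hom.app ((Pc p).obj ((Rc r).obj I))) ≫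
          Q.map ((ad r p adj).counit.app ((Rc r).obj I)) ≫ (er r).inv.app I := by
        simp only [ρ, Category.assoc]
    _ = (er r).hom.app I ≫ (Q.map ((Rc r).map ((ad r p adj).unit.app I)) ≫
          Q.map ((ad r p adj).counit.app ((Rc r).obj I))) ≫ (er r).inv.app I := by
        erw [er_nat]
        simp only [Category.assoc]
        rfl
    _ = (er r).hom.app I ≫ Q.map (𝟙 _) ≫ (er r).inv.app I := by
        rw [← Q.map_comp, h1]
        rfl
    _ = 𝟙 _ := by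
        rw [Q.map_id]
        erw [Category.id_comp]
        exact Iso.hom_inv_id_app _ _

/-- Every map `r F ⟶ r I` is of the form `r b ≫ ρ`. -/
theorem exists_lift (hrI : CochainComplex.IsKInjective ((Rc r).obj I)) (F : CochainComplex A ℤ)
    (α : r.mapDerivedCategory.obj (Q.obj F) ⟶ r.mapDerivedCategory.obj (Q.obj I)) :
    ∃ b : Q.obj F ⟶ Q.obj ((Pc p).obj ((Rc r).obj I)),
      r.mapDerivedCategory.map b ≫ ρ r p adj I = α := by
  obtain ⟨b, hb⟩ := Q_map_surjective hrI ((er r).inv.app F ≫ α ≫ (er r).hom.app I)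
  let b' : F ⟶ (Pc p).obj ((Rc r).obj I) := (ad r p adj).homEquiv _ _ b
  have h4 : (Rc r).map b' ≫ (ad r p adj).counit.app ((Rc r).obj I) = b :=
    ((ad r p adj).homEquiv_counit _ _ _).symm.trans (Equiv.symm_apply_apply _ _)
  refine ⟨Q.map b', ?_⟩
  calc r.mapDerivedCategory.map (Q.map b') ≫ ρ r p adj I
      = (r.mapDerivedCategory.map (Q.map b') ≫ (er r).hom.app ((Pc p).obj ((Rc r).obj I))) ≫
          Q.map ((ad r p adj).counit.app ((Rc r).obj I)) ≫ (er r).inv.app I := by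
        simp only [ρ, Category.assoc]
    _ = (er r).hom.app F ≫ (Q.map ((Rc r).map b') ≫
          Q.map ((ad r p adj).counit.app ((Rc r).obj I))) ≫ (er r).inv.app I := by
        rw [er_nat]
        simp only [Category.assoc]
    _ = (er r).hom.app F ≫ ((er r).inv.app F ≫ α ≫ (er r).hom.app I) ≫ (er r).inv.app I := by
        rw [← Q.map_comp, h4, hb]
    _ = α := by
        simp

/-- If `r θ = 0` then `θ ≫ unit = 0`. -/
theorem comp_unit_eq_zero (hI : I.IsKInjective) (hrI : CochainComplex.IsKInjective ((Rc r).obj I))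
    (K : CochainComplex A ℤ) (θ : Q.obj K ⟶ Q.obj I) (hθ : r.mapDerivedCategory.map θ = 0) :
    θ ≫ Q.map ((ad r p adj).unit.app I) = 0 := by
  obtain ⟨c, rfl⟩ := Q_map_surjective hI θ
  have h2 : Q.map ((Rc r).map c) = 0 := by
    have nat := er_nat r c
    rw [hθ, zero_comp] at nat
    exact ((cancel_epi ((er r).hom.app K)).1 (nat.symm.trans comp_zero.symm))
  obtain ⟨hh⟩ := (Q_map_eq_zero_iff hrI _).1 h2
  have h3 : Q.map ((Pc p).map ((Rc r).map c)) = 0 := by
    have h4 : Homotopy ((Pc p).map ((Rc r).map c)) ((Pc p).map 0) := p.mapHomotopy hh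
    have h5 := (HomotopyCategory.eq_of_homotopy _ _ h4)
    refine (congrArg (Qh.map) h5).trans ?_
    rw [Functor.map_zero, Functor.map_zero, Functor.map_zero]
    rfl
  have h7 : c ≫ (ad r p adj).unit.app I = (ad r p adj).unit.app K ≫ (Pc p).map ((Rc r).map c) :=
    (ad r p adj).unit.naturality c
  have h8 : Q.map (c ≫ (ad r p adj).unit.app I) = 0 := by
    rw [h7]
    exact (Q.map_comp _ _).trans ((congrArg _ h3).trans comp_zero)
  exact (Q.map_comp _ _).symm.trans h8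

end Adj

end Groth.Agent.Dual.H367.Assembly
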