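import Groth.Agent.Dual.H367.Supp
import Groth.Agent.PerfB.ResolQC

/-!
# Quasi-coherent modules vanishing on an open embed into injective ones

On a Noetherian scheme `X` with an open immersion `j : U ⟶ X`, a quasi-coherent module vanishing on `U`
embeds into an injective object of `QCoh(X)` vanishing on `U`.
-/

set_option autoImplicit false
universe u

open CategoryTheory CategoryTheory.Limits AlgebraicGeometry Opposite TopologicalSpace

namespace Groth.Agent.Dual.H367.Embed

open Scheme.Modules Groth.Agent.PerfA.QCohSerre Groth.Agent.Dual.H367.Supp Groth.Agent.PerfC.QCohInj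

variable {X : Scheme.{u}}

/-- A finite product of modules `k_* (T~)`, `T` injective, is an injective object of `QCoh(X)`. -/
theorem injective_prod {ι : Type} (R : ι → CommRingCat.{u}) (k : ∀ i, Spec (R i) ⟶ X)
    [∀ i, IsOpenImmersion (k i)] (T : ∀ i, ModuleCat.{u} (R i)) (hT : ∀ i, Injective (T i))
    (hq : Coh.IsQCoh (∏ᶜ fun i => (pushforward (k i)).obj ((tilde.functor (R i)).obj (T i)))) :
    Injective (⟨_, hq⟩ : (qcoh X).FullSubcategory) where
  factors {A B} g f _ := by
    have hf : Mono ((qcoh X).ι.map f) := inferInstance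
    have hf' : Mono f.hom := hf
    have key : ∀ i, ∃ h : B.obj ⟶ (pushforward (k i)).obj ((tilde.functor (R i)).obj (T i)),
        f.hom ≫ h = g.hom ≫ Pi.π _ i := by
      intro i
      have := hT i
      have hm : Mono ((restrictFunctor (k i)).map f.hom) := inferInstance
      obtain ⟨h, hh⟩ := exists_extension_tilde (T i) (isQCoh_restrict (k i) A.property)
        (isQCoh_restrict (k i) B.property) ((restrictFunctor (k i)).map f.hom)
        (((restrictAdjunction (k i)).homEquiv _ _).symm (g.hom ≫ Pi.π _ i))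
      refine ⟨(restrictAdjunction (k i)).homEquiv _ _ h, ?_⟩
      rw [← Adjunction.homEquiv_naturality_left, hh, Equiv.apply_symm_apply]
    choose h hh using key
    refine ⟨⟨Pi.lift h⟩, ?_⟩
    ext1
    refine Pi.hom_ext _ _ fun i => ?_
    change (f.hom ≫ Pi.lift h) ≫ Pi.π _ i = _
    rw [Category.assoc, Pi.lift_π, hh]

/-- Every quasi-coherent module vanishing on `U` embeds into an injective object of `QCoh(X)` vanishing
on `U`. -/
theorem exists_embedding [IsNoetherian X] {U : Scheme.{u}} (j : U ⟶ X) [IsOpenImmersion j]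
    (M : X.Modules) (hM : Coh.IsQCoh M) (hj : IsZero (M.restrict j)) :
    ∃ (J : (qcoh X).FullSubcategory) (_ : Injective J) (φ : M ⟶ J.obj), Mono φ ∧
      IsZero (J.obj.restrict j) := by
  obtain ⟨ι, hι, V, hV⟩ := exists_finite_affine_cover X
  have hR : ∀ i, IsNoetherianRing Γ(X, (V i).1) := fun i =>
    IsLocallyNoetherian.component_noetherian (V i)
  choose T hT φ hφ hz using fun i => exists_local j (V i).2.fromSpec M hM hj
  let F : ι → X.Modules := fun i => (pushforward (V i).2.fromSpec).obj ((tilde.functor _).obj (T i))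
  have hq : Coh.IsQCoh (∏ᶜ F) := isQCoh_pi _ fun i => isQCoh_push _ _
  let ψ : ∀ i, M ⟶ F i := fun i => (restrictAdjunction (V i).2.fromSpec).homEquiv _ _ (φ i)
  have hψ : ∀ i, Mono ((restrictFunctor (V i).2.fromSpec).map (ψ i)) := by
    intro i
    have h1 : (restrictFunctor (V i).2.fromSpec).map (ψ i) ≫
        (restrictAdjunction (V i).2.fromSpec).counit.app _ = φ i :=
      ((restrictAdjunction (V i).2.fromSpec).homEquiv_counit _ _ _).symm.trans
        (Equiv.symm_apply_apply _ _)
    have h2 : Mono ((restrictFunctor (V i).2.fromSpec).map (ψ i) ≫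
        (restrictAdjunction (V i).2.fromSpec).counit.app _) := by
      rw [h1]; exact hφ i
    exact mono_of_mono _ ((restrictAdjunction (V i).2.fromSpec).counit.app _)
  refine ⟨⟨_, hq⟩, injective_prod _ _ T hT hq, Pi.lift ψ, ?_, ?_⟩
  · rw [Preadditive.mono_iff_isZero_kernel]
    refine PerfA.Restrict.isZero_of_restrict _ fun x => ?_
    obtain ⟨i, hi⟩ := hV x
    refine ⟨_, (V i).2.fromSpec, inferInstance, ?_⟩
    obtain ⟨y, hy⟩ : ∃ y, (V i).2.fromSpec y = x := by
      have : x ∈ Set.range (V i).2.fromSpec := by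
        rw [(V i).2.range_fromSpec]; exact hi
      exact this
    refine ⟨y, hy, ?_⟩
    have h1 : kernel.ι (Pi.lift ψ) ≫ ψ i = 0 := by
      have h0 : Pi.lift ψ ≫ Pi.π _ i = ψ i := Pi.lift_π _ _
      rw [← h0, kernel.condition_assoc, zero_comp]
    have := hψ i
    have h2 : (restrictFunctor (V i).2.fromSpec).map (kernel.ι (Pi.lift ψ)) = 0 := by
      rw [← cancel_mono ((restrictFunctor (V i).2.fromSpec).map (ψ i)),
        ← Functor.map_comp, h1, Functor.map_zero, zero_comp]
    have h3 : Mono ((restrictFunctor (V i).2.fromSpec).map (kernel.ι (Pi.lift ψ))) := inferInstance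
    rw [IsZero.iff_id_eq_zero, ← cancel_mono ((restrictFunctor (V i).2.fromSpec).map (kernel.ι (Pi.lift ψ))),
      h2, comp_zero, comp_zero]
  · refine IsZero.of_iso ?_ (PreservesProduct.iso (restrictFunctor j) F)
    rw [IsZero.iff_id_eq_zero]
    exact Pi.hom_ext _ _ fun i => (hz i).eq_of_tgt _ _

end Groth.Agent.Dual.H367.Embed
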