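import Mathlib.Algebra.Homology.DerivedCategory.TStructure
import Mathlib.Algebra.Homology.DerivedCategory.ShortExact
import Mathlib.Algebra.Homology.DerivedCategory.HomologySequence
import Mathlib.CategoryTheory.ObjectProperty.ClosedUnderIsomorphisms

/-!
# Objects receiving no map from a pro-object

For an inverse system `K : ℕᵒᵖ ⥤ 𝒯` in a pretriangulated category, `NoMap K C` says that every map
`K n ⟶ C` becomes zero on some `K m`, `m ≥ n` (i.e. `colim Hom(K n, C) = 0`).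
-/

set_option autoImplicit false

universe v u

open CategoryTheory CategoryTheory.Limits CategoryTheory.Pretriangulated Opposite

namespace Groth.Agent.Dual.H367.Dies

variable {T : Type u} [Category.{v} T] [HasZeroMorphisms T]

/-- `colim_n Hom(K n, C) = 0`. -/
def NoMap (K : ℕᵒᵖ ⥤ T) : ObjectProperty T := fun C =>
  ∀ (n : ℕ) (γ : K.obj (op n) ⟶ C), ∃ (m : ℕ) (h : n ≤ m), K.map (homOfLE h).op ≫ γ = 0

instance (K : ℕᵒᵖ ⥤ T) : (NoMap K).IsClosedUnderIsomorphisms where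
  of_iso {C D} e hC n γ := by
    obtain ⟨m, h, hm⟩ := hC n (γ ≫ e.inv)
    refine ⟨m, h, ?_⟩
    rw [← cancel_mono e.inv, Category.assoc, hm, zero_comp]

theorem dies_of_forall_eq_zero (K : ℕᵒᵖ ⥤ T) (C : T) (h : ∀ (n : ℕ) (γ : K.obj (op n) ⟶ C), γ = 0) :
    NoMap K C := fun n γ => ⟨n, le_rfl, by rw [h n γ, comp_zero]⟩

theorem dies_of_isZero (K : ℕᵒᵖ ⥤ T) (C : T) (h : IsZero C) : NoMap K C :=
  dies_of_forall_eq_zero K C fun _ _ => h.eq_of_tgt _ _

end Groth.Agent.Dual.H367.Dies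

namespace Groth.Agent.Dual.H367.Dies

variable {T : Type u} [Category.{v} T] [Preadditive T] [HasZeroObject T] [HasShift T ℤ]
  [∀ n : ℤ, (shiftFunctor T n).Additive] [Pretriangulated T]

/-- `NoMap K` is closed under extensions. -/
theorem dies_ext (K : ℕᵒᵖ ⥤ T) (Δ : Triangle T) (hΔ : Δ ∈ distTriang T) (h₁ : NoMap K Δ.obj₁)
    (h₃ : NoMap K Δ.obj₃) : NoMap K Δ.obj₂ := by
  intro n γ
  obtain ⟨m, hnm, hm⟩ := h₃ n (γ ≫ Δ.mor₂)
  rw [← Category.assoc] at hm
  obtain ⟨δ, hδ⟩ := Triangle.coyoneda_exact₂ Δ hΔ _ hm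
  obtain ⟨l, hml, hl⟩ := h₁ m δ
  refine ⟨l, hnm.trans hml, ?_⟩
  have h2 : K.map (homOfLE (hnm.trans hml)).op =
      K.map (homOfLE hml).op ≫ K.map (homOfLE hnm).op := by
    rw [← K.map_comp]; rfl
  rw [h2, Category.assoc, hδ, ← Category.assoc, hl, zero_comp]

end Groth.Agent.Dual.H367.Dies
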