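import Groth.Agent.Cohder.KInjProd
import Groth.Agent.Dual.H367.Dies
import Mathlib.Algebra.Homology.DerivedCategory.ExactFunctor
import Mathlib.Algebra.Homology.DerivedCategory.SingleTriangle
import Mathlib.Algebra.Homology.SingleHomology

/-!
# Maps in the derived category from a pro-complex to an injective object of a subcategory

`F : Q ⥤ A` is an exact functor between abelian categories, inducing a full functor on derived
categories; `K : ℕᵒᵖ ⥤ Cx(A)` consists of complexes coming from `Q` and `J` is an injective object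
of `Q`.
-/

set_option autoImplicit false
universe w w' v v' u u'

open CategoryTheory CategoryTheory.Limits Opposite

namespace Groth.Agent.Dual.H367.Lift

open Groth.Agent.Dual.H367.Dies

variable {Q : Type u} [Category.{v} Q] [Abelian Q] {A : Type u'} [Category.{v'} A] [Abelian A]

theorem injective_single_X (J : Q) [Injective J] (i n : ℤ) :
    Injective (((HomologicalComplex.single Q (ComplexShape.up ℤ) i).obj J).X n) := by
  by_cases h : n = i
  · subst h
    exact Injective.of_iso (HomologicalComplex.singleObjXSelf (ComplexShape.up ℤ) n J).symm inferInstance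
  · exact Injective.of_iso (((HomologicalComplex.isZero_single_obj_X (ComplexShape.up ℤ) i J n h).iso
      (isZero_zero Q)).symm) inferInstance

theorem isKInjective_single (J : Q) [Injective J] (i : ℤ) :
    CochainComplex.IsKInjective ((HomologicalComplex.single Q (ComplexShape.up ℤ) i).obj J) := by
  have h1 : ∀ n : ℤ, Injective (((HomologicalComplex.single Q (ComplexShape.up ℤ) i).obj J).X n) :=
    injective_single_X J i
  have h2 : CochainComplex.IsStrictlyGE ((HomologicalComplex.single Q (ComplexShape.up ℤ) i).obj J) i := by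
    rw [CochainComplex.isStrictlyGE_iff]
    intro n hn
    exact HomologicalComplex.isZero_single_obj_X _ _ _ _ hn.ne
  exact CochainComplex.isKInjective_of_injective _ i

variable [HasDerivedCategory.{w} Q] [HasDerivedCategory.{w'} A] (F : Q ⥤ A) [F.Additive]
  [PreservesFiniteLimits F] [PreservesFiniteColimits F]

/-- Maps in `D(A)` from the image of a complex in `Q` to the image of a K-injective complex in `Q`
are represented by maps of complexes. -/
theorem exists_Q_map_eq [F.mapDerivedCategory.Full] (K L : CochainComplex Q ℤ) (hL : L.IsKInjective)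
    (γ : DerivedCategory.Q.obj ((F.mapHomologicalComplex (ComplexShape.up ℤ)).obj K) ⟶
      DerivedCategory.Q.obj ((F.mapHomologicalComplex (ComplexShape.up ℤ)).obj L)) :
    ∃ c : K ⟶ L, DerivedCategory.Q.map ((F.mapHomologicalComplex (ComplexShape.up ℤ)).map c) = γ := by
  let e := F.mapDerivedCategoryFactors
  let γ' : F.mapDerivedCategory.obj (DerivedCategory.Q.obj K) ⟶
      F.mapDerivedCategory.obj (DerivedCategory.Q.obj L) := e.hom.app K ≫ γ ≫ e.inv.app L
  obtain ⟨δ, hδ⟩ := F.mapDerivedCategory.map_surjective γ'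
  obtain ⟨c, hc⟩ := Groth.Agent.Cohder.KInjProd.Q_map_surjective hL δ
  refine ⟨c, ?_⟩
  have h1 : F.mapDerivedCategory.map (DerivedCategory.Q.map c) ≫ e.hom.app L =
      e.hom.app K ≫ DerivedCategory.Q.map ((F.mapHomologicalComplex (ComplexShape.up ℤ)).map c) :=
    e.hom.naturality c
  rw [hc, hδ] at h1
  have h2 : γ' ≫ e.hom.app L = e.hom.app K ≫ γ := by
    simp [γ']
  rw [h2] at h1
  exact ((cancel_epi (e.hom.app K)).1 h1).symm

/-- If every map `K n i ⟶ F J` dies on some `K m i`, `m ≥ n`, then every map `K n ⟶ (F J)[-i]` in the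
derived category dies on some `K m`. -/
theorem noMap_single [F.mapDerivedCategory.Full] (K : ℕᵒᵖ ⥤ CochainComplex A ℤ)
    (hK : ∀ n : ℕ, ∃ K' : CochainComplex Q ℤ,
      Nonempty ((F.mapHomologicalComplex (ComplexShape.up ℤ)).obj K' ≅ K.obj (op n)))
    (J : Q) [Injective J] (i : ℤ)
    (h : ∀ (n : ℕ) (f : (K.obj (op n)).X i ⟶ F.obj J), ∃ (m : ℕ) (hnm : n ≤ m),
      (K.map (homOfLE hnm).op).f i ≫ f = 0) :
    NoMap (K ⋙ DerivedCategory.Q) ((DerivedCategory.singleFunctor A i).obj (F.obj J)) := by
  let L : CochainComplex Q ℤ := (HomologicalComplex.single Q (ComplexShape.up ℤ) i).obj J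
  have hL : L.IsKInjective := isKInjective_single J i
  let e₁ : (F.mapHomologicalComplex (ComplexShape.up ℤ)).obj L ≅
      (HomologicalComplex.single A (ComplexShape.up ℤ) i).obj (F.obj J) :=
    (HomologicalComplex.singleMapHomologicalComplex F (ComplexShape.up ℤ) i).app J
  let e₂ : (DerivedCategory.singleFunctor A i).obj (F.obj J) ≅
      DerivedCategory.Q.obj ((F.mapHomologicalComplex (ComplexShape.up ℤ)).obj L) :=
    (DerivedCategory.singleFunctorIsoCompQ A i).app (F.obj J) ≪≫ DerivedCategory.Q.mapIso e₁.symm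
  refine (NoMap (K ⋙ DerivedCategory.Q)).prop_of_iso e₂.symm ?_
  intro n γ
  obtain ⟨K', ⟨ε⟩⟩ := hK n
  obtain ⟨c, hc⟩ := exists_Q_map_eq F K' L hL (DerivedCategory.Q.map ε.hom ≫ γ)
  let c' : K.obj (op n) ⟶ (F.mapHomologicalComplex (ComplexShape.up ℤ)).obj L :=
    ε.inv ≫ (F.mapHomologicalComplex (ComplexShape.up ℤ)).map c
  have hc' : DerivedCategory.Q.map c' = γ := by
    simp only [c']
    rw [Functor.map_comp, hc, ← Category.assoc, ← Functor.map_comp, ε.inv_hom_id,
      CategoryTheory.Functor.map_id]
    exact Category.id_comp _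
  let f : (K.obj (op n)).X i ⟶ F.obj J :=
    (c' ≫ e₁.hom).f i ≫ (HomologicalComplex.singleObjXSelf (ComplexShape.up ℤ) i (F.obj J)).hom
  obtain ⟨m, hnm, hm⟩ := h n f
  refine ⟨m, hnm, ?_⟩
  have h1 : K.map (homOfLE hnm).op ≫ c' ≫ e₁.hom = 0 := by
    apply HomologicalComplex.to_single_hom_ext
    rw [← cancel_mono (HomologicalComplex.singleObjXSelf (ComplexShape.up ℤ) i (F.obj J)).hom]
    rw [HomologicalComplex.comp_f, Category.assoc]
    exact hm.trans (by simp)
  have h2 : K.map (homOfLE hnm).op ≫ c' = 0 := by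
    rw [← cancel_mono e₁.hom, Category.assoc, h1, zero_comp]
  change DerivedCategory.Q.map _ ≫ γ = 0
  rw [← hc', ← Functor.map_comp, h2, Functor.map_zero]

end Groth.Agent.Dual.H367.Lift
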