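import Groth.Agent.S1104
import Groth.Agent.PerfB.ResolQC
import Groth.Agent.PerfA.BddDev
import Groth.Agent.Dual.H367.Embed
import Groth.Agent.Dual.H367.Lift

/-!
# Dévissage: a pro-complex of quasi-coherent modules has no maps to complexes supported on the complement

`j : U ⟶ X` is an open immersion into a Noetherian scheme; `K : ℕᵒᵖ ⥤ Cx(O_X)` an inverse system of
complexes of quasi-coherent modules vanishing above a fixed degree, such that each map from `K n i` to a
quasi-coherent module vanishing on `U` dies on some `K m i`.  Then each map in `D(O_X)` from `K n` to a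
bounded below complex with quasi-coherent cohomology sheaves vanishing on `U` dies on some `K m`.
-/

set_option autoImplicit false
universe u

open CategoryTheory CategoryTheory.Limits CategoryTheory.Pretriangulated AlgebraicGeometry Opposite
attribute [local instance] HasDerivedCategory.standard

namespace Groth.Agent.Dual.H367.Dev

open Scheme.Modules Groth.Agent.PerfA.QCohSerre Groth.Agent.PerfA.CohomIn
  Groth.Agent.Dual.H367.Dies

variable {U X : Scheme.{u}} (j : U ⟶ X) [IsOpenImmersion j]

/-- Quasi-coherent modules vanishing on `U`. -/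
def onZ : ObjectProperty X.Modules := fun M => Coh.IsQCoh M ∧ IsZero (M.restrict j)

instance : (onZ j).IsClosedUnderIsomorphisms where
  of_iso e h := ⟨isQCoh_of_iso e h.1, h.2.of_iso ((restrictFunctor j).mapIso e).symm⟩

instance : (onZ j).ContainsZero where
  exists_zero := ⟨_, isZero_zero _, isQCoh_of_isZero (isZero_zero _),
    (restrictFunctor j).map_isZero (isZero_zero _)⟩

variable [IsNoetherian X] (K : ℕᵒᵖ ⥤ CochainComplex X.Modules ℤ)
  (hK : ∀ (n : ℕ) (i : ℤ), Coh.IsQCoh ((K.obj (op n)).X i))
  (b : ℤ) (hb : ∀ (n : ℕ) (i : ℤ), b < i → IsZero ((K.obj (op n)).X i))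
  (hkill : ∀ (M : X.Modules), onZ j M → ∀ (i : ℤ) (n : ℕ) (f : (K.obj (op n)).X i ⟶ M),
    ∃ (m : ℕ) (hnm : n ≤ m), (K.map (homOfLE hnm).op).f i ≫ f = 0)

include hb in
/-- `K n` has no maps to complexes in degrees `> b`. -/
theorem noMap_of_isGE (C : DCoh.D X) (c : ℤ) (hbc : b < c) (hC : C.IsGE c) :
    NoMap (K ⋙ DerivedCategory.Q) C := by
  refine dies_of_forall_eq_zero _ _ fun n γ => ?_
  have h1 : CochainComplex.IsStrictlyLE (K.obj (op n)) b :=
    (CochainComplex.isStrictlyLE_iff _ _).2 fun i hi => hb n i hi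
  have h2 : DerivedCategory.IsLE (DerivedCategory.Q.obj (K.obj (op n))) b := inferInstance
  exact DerivedCategory.TStructure.t.zero_of_isLE_of_isGE γ b c hbc h2 hC

include hK hkill in
/-- `K` has no maps to `J[-i]`, `J` an injective object of `QCoh(X)` vanishing on `U`. -/
theorem noMap_inj (J : (qcoh X).FullSubcategory) [Injective J] (hJ : IsZero (J.obj.restrict j)) (i : ℤ) :
    NoMap (K ⋙ DerivedCategory.Q) ((DerivedCategory.singleFunctor X.Modules i).obj J.obj) := by
  obtain ⟨hfull, -, -⟩ := Groth.Agent.S1104.result X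
  refine Lift.noMap_single (qcoh X).ι K (fun n => ?_) J i fun n f => hkill _ ⟨J.property, hJ⟩ i n f
  exact ⟨HomologicalComplex.liftObjectProperty _ (K.obj (op n)) (hK n), ⟨Iso.refl _⟩⟩

include hK hb hkill in
/-- `K` has no maps to `M[-i]`, `M` quasi-coherent vanishing on `U`. -/
theorem noMap_single (k : ℕ) : ∀ (i : ℤ), b < i + k → ∀ (M : X.Modules), onZ j M →
    NoMap (K ⋙ DerivedCategory.Q) ((DerivedCategory.singleFunctor X.Modules i).obj M) := by
  induction k with
  | zero =>
    intro i hi M hM
    exact noMap_of_isGE K b hb _ i (by simpa using hi) inferInstance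
  | succ k ih =>
    intro i hi M hM
    obtain ⟨J, hJ, φ, hφ, hJz⟩ := Embed.exists_embedding j M hM.1 hM.2
    let S : ShortComplex X.Modules := ShortComplex.mk φ (cokernel.π φ) (cokernel.condition φ)
    have hS : S.ShortExact :=
      { exact := ShortComplex.exact_of_g_is_cokernel _ (cokernelIsCokernel φ)
        mono_f := hφ
        epi_g := inferInstanceAs (Epi (cokernel.π φ)) }
    have hM' : onZ j (cokernel φ) := by
      refine ⟨isQCoh_cokernel φ hM.1 J.property, ?_⟩
      have h1 : Epi ((restrictFunctor j).map (cokernel.π φ)) := inferInstance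
      rw [IsZero.iff_id_eq_zero, ← cancel_epi ((restrictFunctor j).map (cokernel.π φ))]
      exact hJz.eq_of_src _ _
    have hS' := hS.map_of_exact (HomologicalComplex.single X.Modules (ComplexShape.up ℤ) i)
    have hT := inv_rot_of_distTriang _ (DerivedCategory.triangleOfSES_distinguished hS')
    have h2 : NoMap (K ⋙ DerivedCategory.Q) ((DerivedCategory.singleFunctor X.Modules (i + 1)).obj
        (cokernel φ)) := ih (i + 1) (by push_cast at hi; lia) _ hM'
    let e₁ : (DerivedCategory.singleFunctor X.Modules (i + 1)).obj (cokernel φ) ≅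
        ((DerivedCategory.singleFunctor X.Modules i).obj (cokernel φ))⟦(-1 : ℤ)⟧ :=
      (((DerivedCategory.singleFunctors X.Modules).shiftIso (-1) (i + 1) i (by lia)).app
        (cokernel φ)).symm
    let e₂ : (DerivedCategory.singleFunctor X.Modules i).obj (cokernel φ) ≅
        DerivedCategory.Q.obj ((HomologicalComplex.single X.Modules (ComplexShape.up ℤ) i).obj (cokernel φ)) :=
      (DerivedCategory.singleFunctorIsoCompQ X.Modules i).app (cokernel φ)
    have h3 := (NoMap (K ⋙ DerivedCategory.Q)).prop_of_iso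
      (e₁ ≪≫ (shiftFunctor (DCoh.D X) (-1 : ℤ)).mapIso e₂) h2
    have h4 := (NoMap (K ⋙ DerivedCategory.Q)).prop_of_iso
      ((DerivedCategory.singleFunctorIsoCompQ X.Modules i).app J.obj) (noMap_inj j K hK hkill J hJz i)
    have h5 := dies_ext (K ⋙ DerivedCategory.Q) _ hT h3 h4
    exact (NoMap (K ⋙ DerivedCategory.Q)).prop_of_iso
      ((DerivedCategory.singleFunctorIsoCompQ X.Modules i).app M).symm h5

include hK hb hkill in
/-- `K` has no maps to bounded below complexes with quasi-coherent cohomology sheaves vanishing on `U`. -/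
theorem noMap (C : DCoh.D X) (c : ℤ) [hc : C.IsGE c] (hC : coh (onZ j) C) :
    NoMap (K ⋙ DerivedCategory.Q) C := by
  refine dies_ext (K ⋙ DerivedCategory.Q) _
    (DerivedCategory.TStructure.t.triangleLTGE_distinguished (b + 1) C) ?_ ?_
  · have h3 : ((DerivedCategory.TStructure.t.truncLT (b + 1)).obj C).IsGE c :=
      Groth.Agent.PerfA.BddDev.isGE_truncLT C (b + 1) c
    have h4 : ((DerivedCategory.TStructure.t.truncLT (b + 1)).obj C).IsLE b :=
      DerivedCategory.TStructure.t.isLE_truncLT_obj C (b + 1) b
    refine Groth.Agent.PerfA.BddDev.devissage (onZ j) (NoMap (K ⋙ DerivedCategory.Q))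
      (fun e h => (NoMap (K ⋙ DerivedCategory.Q)).prop_of_iso e h) (fun M n hM => ?_)
      (fun T hT h₁ h₃ => dies_ext (K ⋙ DerivedCategory.Q) T hT h₁ h₃)
      ((DerivedCategory.TStructure.t.truncLT (b + 1)).obj C) c b (coh_truncLT (onZ j) C (b + 1) hC)
    exact noMap_single j K hK b hb hkill (b - n + 1).toNat n (by lia) M hM
  · exact noMap_of_isGE K b hb _ (b + 1) (by lia) inferInstance

end Groth.Agent.Dual.H367.Dev
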