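import Groth.Prelude.Def_Dual3
import Groth.Agent.FormalB.TrKQuot
import Groth.Agent.PerfA.CohSerre

/-!
# The submodule `I · M` of a module: transition maps and affine sections
-/

set_option autoImplicit false
universe u

open CategoryTheory CategoryTheory.Limits AlgebraicGeometry Opposite

namespace Groth.Agent.Dual.H367.IdMul

open Groth.Agent.FormalB.TrKQuot Groth.Agent.FormalB.KQuot Groth.Agent.FormalB.SysSect

variable {X : Scheme.{u}}

theorem idealMulι_comp_kπ (K : X.IdealSheafData) (M : X.Modules) :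
    Dual3.idealMulι K M ≫ kπ K M = 0 := kernel.condition _

/-- `J · M ⟶ M ⟶ M / K M` vanishes for `J ≤ K`. -/
theorem idealMulι_comp_kπ_of_le {J K : X.IdealSheafData} (h : J ≤ K) (M : X.Modules) :
    Dual3.idealMulι J M ≫ kπ K M = 0 := by
  have hK : ClSub.KilledByIdeal J (kq K M) := killedByIdeal_of_le h (killed_pushforward K _)
  have := isIso_kπ J hK
  rw [← cancel_mono (kπ J (kq K M)), Category.assoc, zero_comp]
  have h1 : kπ K M ≫ kπ J (kq K M) = kπ J M ≫
      (Scheme.Modules.pullback J.subschemeι ⋙ Scheme.Modules.pushforward J.subschemeι).map (kπ K M) :=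
    (Scheme.Modules.pullbackPushforwardAdjunction J.subschemeι).unit.naturality (kπ K M)
  exact (congrArg (Dual3.idealMulι J M ≫ ·) h1).trans (((Category.assoc _ _ _).symm).trans
    ((congrArg (· ≫ _) (idealMulι_comp_kπ J M)).trans zero_comp))

/-- The inclusion `J · M ⟶ K · M` for `J ≤ K`. -/
noncomputable def tr {J K : X.IdealSheafData} (h : J ≤ K) (M : X.Modules) :
    (Dual3.idealMul J).obj M ⟶ (Dual3.idealMul K).obj M :=
  kernel.lift _ (Dual3.idealMulι J M) (idealMulι_comp_kπ_of_le h M)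

@[reassoc (attr := simp)]
theorem tr_ι {J K : X.IdealSheafData} (h : J ≤ K) (M : X.Modules) :
    tr h M ≫ Dual3.idealMulι K M = Dual3.idealMulι J M := kernel.lift_ι _ _ _

theorem tr_self {J : X.IdealSheafData} (h : J ≤ J) (M : X.Modules) : tr h M = 𝟙 _ := by
  rw [← cancel_mono (Dual3.idealMulι J M), tr_ι, Category.id_comp]

theorem tr_comp {J K L : X.IdealSheafData} (h : J ≤ K) (h' : K ≤ L) (M : X.Modules) :
    tr h M ≫ tr h' M = tr (h.trans h') M := by
  rw [← cancel_mono (Dual3.idealMulι L M), Category.assoc, tr_ι, tr_ι, tr_ι]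

theorem tr_naturality {J K : X.IdealSheafData} (h : J ≤ K) {M N : X.Modules} (φ : M ⟶ N) :
    tr h M ≫ (Dual3.idealMul K).map φ = (Dual3.idealMul J).map φ ≫ tr h N := by
  rw [← cancel_mono (Dual3.idealMulι K N), Category.assoc, Category.assoc, tr_ι,
    Dual3.idealMul_map_ι, Dual3.idealMul_map_ι, tr_ι_assoc]

/-- Sections of `K · M` over an affine open: they lie in `K(U) · M(U)`. -/
theorem app_mem (K : X.IdealSheafData) {M : X.Modules} (hM : Coh.IsQCoh M) (U : X.affineOpens)
    (t : Γ((Dual3.idealMul K).obj M, U.1)) :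
    (Dual3.idealMulι K M).app U.1 t ∈ K.ideal U • (⊤ : Submodule Γ(X, U.1) Γ(M, U.1)) :=
  kernel_kπ_mem K hM U _ (congr(($(idealMulι_comp_kπ K M)).app U.1 t))

/-- Sections in `K(U) · M(U)` come from `K · M`. -/
theorem exists_app_eq (K : X.IdealSheafData) {M : X.Modules} (U : X.affineOpens)
    (s : Γ(M, U.1)) (hs : s ∈ K.ideal U • (⊤ : Submodule Γ(X, U.1) Γ(M, U.1))) :
    ∃ t, (Dual3.idealMulι K M).app U.1 t = s :=
  Groth.Agent.Sga67.IdealTorsion.exists_kernel_ι (kπ K M) U.1 s
    (app_eq_zero_of_mem (kπ K M) (killed_pushforward K _) U s hs)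

theorem isQCoh_idealMul (K : X.IdealSheafData) {M : X.Modules} (hM : Coh.IsQCoh M) :
    Coh.IsQCoh ((Dual3.idealMul K).obj M) :=
  PerfA.QCohSerre.isQCoh_kernel (kπ K M) hM (isQCoh_kq K hM)

theorem isCoh_idealMul [IsLocallyNoetherian X] (K : X.IdealSheafData) {M : X.Modules} (hM : Coh.IsCoh M) :
    Coh.IsCoh ((Dual3.idealMul K).obj M) :=
  PerfA.CohSerre.isCoh_kernel (kπ K M) hM (isQCoh_kq K hM.1)

end Groth.Agent.Dual.H367.IdMul
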