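import Groth.Agent.PerfC.QCohInj
import Groth.Agent.S0301
import Groth.Agent.PerfA.QCohSerre

/-!
# Quasi-coherent modules supported on a closed subset embed into injective ones

`j : U ⟶ X` is an open immersion into a Noetherian scheme; every quasi-coherent module on `X` which
vanishes on `U` embeds into an injective object of `QCoh(X)` which vanishes on `U`.
-/

set_option autoImplicit false
universe u

open CategoryTheory CategoryTheory.Limits AlgebraicGeometry Opposite TopologicalSpace

namespace Groth.Agent.Dual.H367.Supp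

open Scheme.Modules Groth.Agent.PerfA.QCohSerre

section Zero

variable {U X : Scheme.{u}} (j : U ⟶ X) [IsOpenImmersion j] {M : X.Modules}

/-- Sections of a zero module are zero. -/
theorem app_eq_zero_of_isZero {X : Scheme.{u}} {M : X.Modules} (h : IsZero M) (W : X.Opens)
    (m : Γ(M, W)) : m = 0 := by
  have h1 : 𝟙 M = 0 := h.eq_of_src _ _
  exact congr(($h1).app W m)

/-- If `M` vanishes on `U`, its sections over opens contained in `U` are zero. -/
theorem section_eq_zero (h : IsZero (M.restrict j)) (W : X.Opens) (hW : (W : Set X) ⊆ Set.range j)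
    (m : Γ(M, W)) : m = 0 := by
  have h1 : W ≤ j ''ᵁ (j ⁻¹ᵁ W) := by
    rw [Scheme.Hom.image_preimage_eq_opensRange_inf]
    exact le_inf hW le_rfl
  have h2 : j ''ᵁ (j ⁻¹ᵁ W) ≤ W := j.image_preimage_le W
  have h3 : M.presheaf.map (homOfLE h2).op m = 0 :=
    app_eq_zero_of_isZero h (j ⁻¹ᵁ W) (show Γ(M.restrict j, j ⁻¹ᵁ W) from M.presheaf.map (homOfLE h2).op m)
  have h4 := congr_arg (M.presheaf.map (homOfLE h1).op) h3
  rw [Groth.Agent.Fdesc.QCohStalk.map_map, map_zero, Groth.Agent.Fdesc.QCohStalk.map_self] at h4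
  exact h4

/-- Converse. -/
theorem isZero_restrict (h : ∀ (W : X.Opens), (W : Set X) ⊆ Set.range j → ∀ m : Γ(M, W), m = 0) :
    IsZero (M.restrict j) := by
  rw [IsZero.iff_id_eq_zero]
  ext V m
  exact h (j ''ᵁ V) (by rintro _ ⟨y, _, rfl⟩; exact ⟨y, rfl⟩) m

end Zero

section Affine

variable {R : CommRingCat.{u}}

/-- Modules of the form `I~`, `I` injective, have the extension property with respect to monomorphisms
of quasi-coherent modules. -/
theorem exists_extension_tilde (I : ModuleCat.{u} R) [Injective I] {A B : (Spec R).Modules}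
    (hA : Coh.IsQCoh A) (hB : Coh.IsQCoh B) (f : A ⟶ B) [Mono f] (g : A ⟶ (tilde.functor R).obj I) :
    ∃ h : B ⟶ (tilde.functor R).obj I, f ≫ h = g := by
  have : PreservesLimits (moduleSpecΓFunctor (R := R)) := tilde.adjunction.rightAdjoint_preservesLimits
  have h1 : Injective (moduleSpecΓFunctor.obj ((tilde.functor R).obj I)) :=
    @Injective.of_iso _ _ _ _ (asIso (tilde.adjunction.unit.app I)) (‹Injective I›)
  have h2 : Mono (moduleSpecΓFunctor.map f) := inferInstance
  have hA' : A.IsQuasicoherent := hA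
  have hB' : B.IsQuasicoherent := hB
  have i1 : IsIso (tilde.adjunction.counit.app A) :=
    Scheme.Modules.isIso_fromTildeΓ_of_isQuasicoherent A
  have i2 : IsIso (tilde.adjunction.counit.app B) :=
    Scheme.Modules.isIso_fromTildeΓ_of_isQuasicoherent B
  obtain ⟨k, hk⟩ : ∃ k : moduleSpecΓFunctor.obj B ⟶ moduleSpecΓFunctor.obj ((tilde.functor R).obj I),
      moduleSpecΓFunctor.map f ≫ k = moduleSpecΓFunctor.map g :=
    ⟨Injective.factorThru _ _, Injective.comp_factorThru _ _⟩
  refine ⟨inv (tilde.adjunction.counit.app B) ≫ (tilde.functor R).map k ≫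
    tilde.adjunction.counit.app _, ?_⟩
  have n1 : (tilde.functor R).map (moduleSpecΓFunctor.map f) ≫ tilde.adjunction.counit.app B =
      tilde.adjunction.counit.app A ≫ f := tilde.adjunction.counit.naturality f
  have n2 : (tilde.functor R).map (moduleSpecΓFunctor.map g) ≫
      tilde.adjunction.counit.app ((tilde.functor R).obj I) =
      tilde.adjunction.counit.app A ≫ g := tilde.adjunction.counit.naturality g
  have n3 : f ≫ inv (tilde.adjunction.counit.app B) =
      inv (tilde.adjunction.counit.app A) ≫ (tilde.functor R).map (moduleSpecΓFunctor.map f) := by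
    rw [IsIso.comp_inv_eq, Category.assoc, n1, IsIso.inv_hom_id_assoc]
  rw [← Category.assoc, n3, Category.assoc, ← Category.assoc ((tilde.functor R).map _), ← Functor.map_comp,
    hk, n2, IsIso.inv_hom_id_assoc]

/-- The `a`-power torsion of an injective module over a Noetherian ring. -/
theorem exists_torsion [IsNoetherianRing R] (a : Ideal R) (N : ModuleCat.{u} R)
    (hN : ∀ s : N, ∃ n : ℕ, ∀ r ∈ a ^ n, r • s = 0) :
    ∃ (T : ModuleCat.{u} R) (_ : Injective T) (φ : N ⟶ T), Mono φ ∧
      ∀ s : T, ∃ n : ℕ, ∀ r ∈ a ^ n, r • s = 0 := by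
  let E := Injective.under N
  let ι : N ⟶ E := Injective.ι N
  have hE : Module.Injective R E :=
    @Module.injective_module_of_injective_object R E _ _ _ (inferInstanceAs (Injective E))
  let T : Submodule R E := ⨆ n : ℕ, Submodule.torsionBySet R E ((a ^ n : Ideal R) : Set R)
  have hT : Module.Injective R T := Groth.Agent.S0301.result R E hE a
  have hmono : Monotone fun n : ℕ => Submodule.torsionBySet R E ((a ^ n : Ideal R) : Set R) := by
    intro m n hmn s hs
    rw [Submodule.mem_torsionBySet_iff] at hs ⊢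
    intro r
    exact hs ⟨r.1, Ideal.pow_le_pow_right hmn r.2⟩
  have hmem : ∀ s : E, s ∈ T ↔ ∃ n : ℕ, ∀ r ∈ a ^ n, r • s = 0 := by
    intro s
    rw [Submodule.mem_iSup_of_directed _ hmono.directed_le]
    refine exists_congr fun n => ?_
    rw [Submodule.mem_torsionBySet_iff]
    exact ⟨fun h r hr => h ⟨r, hr⟩, fun h r => h r.1 r.2⟩
  have hι : ∀ s : N, ι.hom s ∈ T := by
    intro s
    obtain ⟨n, hn⟩ := hN s
    refine (hmem _).2 ⟨n, fun r hr => ?_⟩
    rw [← LinearMap.map_smul, hn r hr, LinearMap.map_zero]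
  refine ⟨ModuleCat.of R T, Module.injective_object_of_injective_module R T,
    ModuleCat.ofHom (LinearMap.codRestrict T ι.hom hι), ?_, ?_⟩
  · rw [ModuleCat.mono_iff_injective]
    intro x y hxy
    have h1 : ι.hom x = ι.hom y := congr_arg Subtype.val hxy
    exact (ModuleCat.mono_iff_injective ι).1 inferInstance h1
  · intro s
    obtain ⟨n, hn⟩ := (hmem s.1).1 s.2
    exact ⟨n, fun r hr => Subtype.ext (hn r hr)⟩

/-- If `T` is `a`-power torsion then the stalks of `T~` outside `V(a)` vanish. -/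
theorem tilde_stalk_eq_zero (a : Ideal R) (T : ModuleCat.{u} R)
    (hT : ∀ s : T, ∃ n : ℕ, ∀ r ∈ a ^ n, r • s = 0) (x : PrimeSpectrum.Top R)
    (hx : ¬ a ≤ x.asIdeal) (z : (tilde T).presheaf.stalk x) : z = 0 := by
  obtain ⟨r, hr, hrx⟩ := SetLike.not_le_iff_exists.1 hx
  obtain ⟨⟨t, s⟩, hts⟩ := IsLocalizedModule.surj x.asIdeal.primeCompl (tilde.toStalk T x).hom z
  obtain ⟨n, hn⟩ := hT t
  have hr' : r ∈ x.asIdeal.primeCompl := hrx
  have h1 : r ^ n • ((s : R) • z) = 0 := by
    have h2 : (s : R) • z = (tilde.toStalk T x).hom t := hts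
    rw [h2]
    have h3 := (tilde.toStalk T x).hom.map_smul (r ^ n) t
    rw [hn _ (Ideal.pow_mem_pow hr n), map_zero] at h3
    exact h3.symm
  have h4 := IsLocalizedModule.smul_injective (S := x.asIdeal.primeCompl)
    (tilde.toStalk T x).hom (⟨r ^ n, Submonoid.pow_mem _ hr' n⟩ * s)
  apply h4
  have h5 : ∀ y : (tilde T).presheaf.stalk x, ((⟨r ^ n, Submonoid.pow_mem _ hr' n⟩ * s :
      x.asIdeal.primeCompl)) • y = (r ^ n * (s : R)) • y := fun y => rfl
  change ((⟨r ^ n, Submonoid.pow_mem _ hr' n⟩ * s : x.asIdeal.primeCompl)) • z =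
    ((⟨r ^ n, Submonoid.pow_mem _ hr' n⟩ * s : x.asIdeal.primeCompl)) •
      (0 : (tilde T).presheaf.stalk x)
  rw [h5, h5, smul_zero, mul_smul, h1]

/-- If `T` is `a`-power torsion then `T~` has no nonzero sections over opens contained in the
complement of `V(a)`. -/
theorem tilde_section_eq_zero (a : Ideal R) (T : ModuleCat.{u} R)
    (hT : ∀ s : T, ∃ n : ℕ, ∀ r ∈ a ^ n, r • s = 0) (W : (Spec R).Opens)
    (hW : ∀ x : PrimeSpectrum.Top R, x ∈ W → ¬ a ≤ x.asIdeal) (m : Γ(tilde T, W)) : m = 0 := by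
  refine TopCat.Presheaf.section_ext ⟨(tilde T).presheaf, (tilde T).isSheaf⟩ W m 0 fun x hx => ?_
  have key := tilde_stalk_eq_zero a T hT x (hW x hx)
  exact (key _).trans (key _).symm

end Affine

section Local

variable {U X : Scheme.{u}} (j : U ⟶ X) [IsOpenImmersion j] {R : CommRingCat.{u}}

/-- The local embedding. -/
theorem exists_local [IsNoetherianRing R] (k : Spec R ⟶ X) [IsOpenImmersion k]
    (M : X.Modules) (hM : Coh.IsQCoh M) (hj : IsZero (M.restrict j)) :
    ∃ (T : ModuleCat.{u} R) (_ : Injective T) (φ : M.restrict k ⟶ (tilde.functor R).obj T), Mono φ ∧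
      IsZero (((pushforward k).obj ((tilde.functor R).obj T)).restrict j) := by
  obtain ⟨a, ha⟩ := (PrimeSpectrum.isClosed_iff_zeroLocus_ideal _).1
    (k ⁻¹ᵁ j.opensRange).isOpen.isClosed_compl
  have ha' : ∀ x : PrimeSpectrum.Top R, k x ∈ Set.range j → ¬ a ≤ x.asIdeal := by
    intro x hx hax
    have : x ∈ (PrimeSpectrum.zeroLocus (a : Set R)) := hax
    rw [← ha] at this
    exact this hx
  have ha'' : ∀ x : PrimeSpectrum.Top R, ¬ a ≤ x.asIdeal → k x ∈ Set.range j := by
    intro x hx
    by_contra h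
    have : x ∈ ((k ⁻¹ᵁ j.opensRange : (Spec R).Opens) : Set (Spec R))ᶜ := h
    rw [ha] at this
    exact hx this
  let N := M.restrict k
  have hN : Coh.IsQCoh N := isQCoh_restrict k hM
  have htor : ∀ s : Γ(N, ⊤), ∃ n : ℕ, ∀ r ∈ a ^ n, r • s = 0 := by
    intro s
    have hrad : a ≤ (Ideal.span {r : R | r • s = 0}).radical := by
      intro r hr
      have h0 : N.presheaf.map
          (homOfLE (le_top : (PrimeSpectrum.basicOpen r : (Spec R).Opens) ≤ ⊤)).op s = 0 := by
        refine section_eq_zero (M := M) j hj (k ''ᵁ (PrimeSpectrum.basicOpen r : (Spec R).Opens)) ?_ _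
        rintro _ ⟨x, hx, rfl⟩
        exact ha'' x fun h => hx (h hr)
      obtain ⟨n, hn⟩ := Groth.Agent.Fdesc.QCohStalk.spec_exists_of_map_eq_zero N hN r s h0
      exact ⟨n, Ideal.subset_span hn⟩
    obtain ⟨n, hn⟩ := Ideal.exists_pow_le_of_le_radical_of_fg hrad (IsNoetherian.noetherian a)
    refine ⟨n, fun r hr => ?_⟩
    refine Submodule.span_induction (p := fun r _ => r • s = 0) (fun r hr => hr) (zero_smul _ _)
      (fun x y _ _ hx hy => by rw [add_smul, hx, hy, add_zero])
      (fun c x _ hx => by rw [smul_eq_mul, mul_smul, hx, smul_zero]) (hn hr)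
  obtain ⟨T, hT, φ, hφ, hTa⟩ := exists_torsion a (moduleSpecΓFunctor.obj N) htor
  refine ⟨T, hT, (PerfB.QCohLocal.tildeΓIso N hN).inv ≫ (tilde.functor R).map φ, ?_, ?_⟩
  · have : Mono ((tilde.functor R).map φ) := (tilde.functor R).map_mono _
    infer_instance
  · refine isZero_restrict j fun W hW m => ?_
    exact tilde_section_eq_zero a T hTa (k ⁻¹ᵁ W) (fun x hx => ha' x (hW hx)) m

end Local

end Groth.Agent.Dual.H367.Supp
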