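import Groth.Agent.Dual.H367.IdMul
import Groth.Agent.PerfC.QCohInj
import Groth.Agent.CohqA.FinSec
import Groth.Agent.Dual.H367.Supp

/-!
# Maps from `I^n G` to modules supported on `V(I)` die on `I^m G` for large `m`

The Deligne system as a functor `ℕᵒᵖ ⥤ Cx(O_X)`.
-/

set_option autoImplicit false
universe u

open CategoryTheory CategoryTheory.Limits AlgebraicGeometry Opposite

namespace Groth.Agent.Dual.H367.Kill

open Scheme.Modules Groth.Agent.Dual.H367.IdMul Groth.Agent.PerfA.QCohSerre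

variable {X : Scheme.{u}} (I : X.IdealSheafData)

theorem pow_le {n m : ℕ} (h : n ≤ m) : I ^ m ≤ I ^ n := by
  intro U
  rw [Scheme.IdealSheafData.ideal_pow, Scheme.IdealSheafData.ideal_pow, Pi.pow_apply, Pi.pow_apply]
  exact Ideal.pow_le_pow_right h

/-- The Deligne system `n ↦ I^n F`. -/
noncomputable def sys (F : CochainComplex X.Modules ℤ) : ℕᵒᵖ ⥤ CochainComplex X.Modules ℤ where
  obj n := (Dual3.deligne I n.unop).obj F
  map {n m} f :=
    { f := fun q => tr (pow_le I (leOfHom f.unop)) (F.X q)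
      comm' := fun q r _ => tr_naturality (pow_le I (leOfHom f.unop)) (F.d q r) }
  map_id n := by
    ext q : 1
    exact tr_self (le_refl (I ^ n.unop)) _
  map_comp {n m l} f g := by
    ext q : 1
    exact (tr_comp (pow_le I (leOfHom f.unop)) (pow_le I (leOfHom g.unop)) _).symm

theorem sys_map_ι (F : CochainComplex X.Modules ℤ) {n m : ℕ} (h : n ≤ m) :
    (sys I F).map (homOfLE h).op ≫ Dual3.deligneι I n F = Dual3.deligneι I m F := by
  ext q : 1
  exact tr_ι (pow_le I h) _

instance mono_deligneι (n : ℕ) (F : CochainComplex X.Modules ℤ) : Mono (Dual3.deligneι I n F) :=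
  have : ∀ q, Mono ((Dual3.deligneι I n F).f q) := fun q => Dual3.mono_idealMulι (I ^ n) (F.X q)
  HomologicalComplex.mono_of_mono_f _ this

variable {U : Scheme.{u}} (j : U ⟶ X) [IsOpenImmersion j]

/-- A coherent module vanishing on `U` is killed by a power of `I`. -/
theorem exists_pow_killed [IsNoetherian X] (hI : I.supportSetᶜ = Set.range j) {M : X.Modules}
    (hM : Coh.IsCoh M) (hj : IsZero (M.restrict j)) : ∃ k, ClSub.KilledByIdeal (I ^ k) M := by
  obtain ⟨ι, hι, V, hV⟩ := PerfC.QCohInj.exists_finite_affine_cover X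
  refine Groth.Agent.Sga67.IdealTorsion.exists_pow_killed I V hV hM.1 (fun i => ?_) (fun i => ?_)
    fun W hW m => ?_
  · exact Groth.Agent.CohqA.FinSec.finite_sections (V i).2 hM.1 hM.2
  · have : IsNoetherianRing Γ(X, (V i).1) := IsLocallyNoetherian.component_noetherian (V i)
    exact IsNoetherian.noetherian _
  · refine Supp.section_eq_zero j hj W ?_ m
    rw [← hI]
    intro x hx hx'
    exact Set.disjoint_left.1 hW hx hx'

/-- Maps `I^n G ⟶ M`, `M` quasi-coherent vanishing on `U`, die on `I^m G` for some `m ≥ n`. -/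
theorem kill [IsNoetherian X] (hI : I.supportSetᶜ = Set.range j) {G : X.Modules} (hG : Coh.IsCoh G)
    {M : X.Modules} (hM : Coh.IsQCoh M) (hj : IsZero (M.restrict j)) (n : ℕ)
    (f : (Dual3.idealMul (I ^ n)).obj G ⟶ M) :
    ∃ (m : ℕ) (h : n ≤ m), tr (pow_le I h) G ≫ f = 0 := by
  have hGn : Coh.IsCoh ((Dual3.idealMul (I ^ n)).obj G) := isCoh_idealMul _ hG
  let E := Abelian.image f
  let e : (Dual3.idealMul (I ^ n)).obj G ⟶ E := Abelian.factorThruImage f
  let i : E ⟶ M := Abelian.image.ι f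
  have hei : e ≫ i = f := Abelian.image.fac f
  have hE : Coh.IsCoh E :=
    ⟨isQCoh_kernel _ hM (isQCoh_cokernel f hGn.1 hM), Groth.Agent.CohqB.LocalQC.isFT_of_epi e hGn.2⟩
  have hEj : IsZero (E.restrict j) := by
    have h1 : Mono ((restrictFunctor j).map i) := inferInstance
    rw [IsZero.iff_id_eq_zero, ← cancel_mono ((restrictFunctor j).map i)]
    exact hj.eq_of_tgt _ _
  obtain ⟨k, hk⟩ := exists_pow_killed I j hI hE hEj
  refine ⟨n + k, Nat.le_add_right n k, ?_⟩
  rw [← hei, ← Category.assoc]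
  have key : tr (pow_le I (Nat.le_add_right n k)) G ≫ e = 0 := by
    apply Groth.Agent.FormalB.SysSect.hom_eq_zero_of_affine
    intro V hV s
    let V' : X.affineOpens := ⟨V, hV⟩
    have h1 : ∀ y ∈ (I ^ k).ideal V' • ((I ^ n).ideal V' • (⊤ : Submodule Γ(X, V) Γ(G, V))),
        ∃ t ∈ (I ^ k).ideal V' • (⊤ : Submodule Γ(X, V) Γ((Dual3.idealMul (I ^ n)).obj G, V)),
          (Dual3.idealMulι (I ^ n) G).app V t = y := by
      intro y hy
      refine Submodule.smul_induction_on hy (fun a ha m hm => ?_) (fun y y' h1 h2 => ?_)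
      · obtain ⟨t, rfl⟩ := exists_app_eq (I ^ n) V' m hm
        exact ⟨a • t, Submodule.smul_mem_smul ha trivial, Scheme.Modules.Hom.app_smul _ _ _⟩
      · obtain ⟨z, hz, rfl⟩ := h1
        obtain ⟨z', hz', rfl⟩ := h2
        exact ⟨z + z', add_mem hz hz', map_add _ _ _⟩
    have h2 : (Dual3.idealMulι (I ^ (n + k)) G).app V s ∈
        (I ^ k).ideal V' • ((I ^ n).ideal V' • (⊤ : Submodule Γ(X, V) Γ(G, V))) := by
      have h3 := app_mem (I ^ (n + k)) hG.1 V' s
      have h4 : (I ^ (n + k)).ideal V' = (I ^ k).ideal V' * (I ^ n).ideal V' := by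
        simp only [Scheme.IdealSheafData.ideal_pow, Pi.pow_apply]
        rw [← pow_add, add_comm]
      rw [h4, Submodule.mul_smul] at h3
      exact h3
    obtain ⟨t, ht, hts⟩ := h1 _ h2
    have h5 : (tr (pow_le I (Nat.le_add_right n k)) G).app V s = t := by
      apply Groth.Agent.FormalB.KQuot.injective_app_of_mono (Dual3.idealMulι (I ^ n) G) V
      rw [hts]
      exact congr(($(tr_ι (pow_le I (Nat.le_add_right n k)) G)).app V s)
    change e.app V ((tr (pow_le I (Nat.le_add_right n k)) G).app V s) = 0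
    rw [h5]
    exact Groth.Agent.FormalB.TrKQuot.app_eq_zero_of_mem e hk V' t ht
  rw [key, zero_comp]

end Groth.Agent.Dual.H367.Kill
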