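import Groth.Agent.Dual.H367.Assembly
import Groth.Agent.Dual.H367.Dev
import Groth.Agent.PerfB.GammaZ

/-!
# Deligne's formula for bounded below complexes of injectives with quasi-coherent cohomology

`j : U ⟶ X` is an open immersion of Noetherian schemes, `K : ℕᵒᵖ ⥤ Cx(O_X)` a pro-complex as in `Dev`, and
`J` a bounded below complex of injectives with quasi-coherent cohomology sheaves.
-/

set_option autoImplicit false
universe u

open CategoryTheory CategoryTheory.Limits CategoryTheory.Pretriangulated AlgebraicGeometry Opposite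
attribute [local instance] HasDerivedCategory.standard

namespace Groth.Agent.Dual.H367.Main

open Scheme.Modules Groth.Agent.PerfA.QCohSerre Groth.Agent.PerfA.CohomIn
  Groth.Agent.Dual.H367.Dies Groth.Agent.Dual.H367.Dev Groth.Agent.PerfB.GammaZ
  Groth.Agent.Dual.H367.Assembly

variable {U X : Scheme.{u}} (j : U ⟶ X) [IsOpenImmersion j]

section Gamma

variable (J : CochainComplex X.Modules ℤ) (hJ : ∀ n, Injective (J.X n)) (c : ℤ) [hJ' : J.IsStrictlyGE c]

include hJ hJ' in
theorem coh_gamma [IsNoetherian U] (hJc : ∀ n, Coh.IsQCoh (J.homology n)) :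
    coh (onZ j) (DerivedCategory.Q.obj (S j J).X₁) := by
  rw [coh_Q_iff]
  intro i
  refine ⟨isQCoh_homology_gammaZ j J hJ c hJc i, ?_⟩
  refine IsZero.of_iso ?_ (restrictHomologyIso j _ i).symm
  have h := ShortComplex.exact_of_isZero_X₂
    (((((Scheme.Modules.restrictFunctor j).mapHomologicalComplex (.up ℤ)).obj
      (((DCoh.gammaZ j).mapHomologicalComplex (.up ℤ)).obj J))).sc i)
    (isZero_restrict_gammaZ j (J.X i))
  exact (ShortComplex.exact_iff_isZero_homology _).1 h

include hJ' in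
theorem isGE_gamma : (DerivedCategory.Q.obj (S j J).X₁).IsGE c := by
  have h : CochainComplex.IsStrictlyGE (S j J).X₁ c := by
    rw [CochainComplex.isStrictlyGE_iff]
    intro i hi
    exact (DCoh.gammaZ j).map_isZero (J.isZero_of_isStrictlyGE c i hi)
  infer_instance

include hJ hJ' in
theorem isKInjective_restrict : CochainComplex.IsKInjective ((Rc (restrictFunctor j)).obj J) := by
  have h1 : ∀ n, Injective (((Rc (restrictFunctor j)).obj J).X n) := fun n =>
    have := hJ n
    injective_restrict j (J.X n)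
  have h3 : CochainComplex.IsStrictlyGE ((Rc (restrictFunctor j)).obj J) c := by
    rw [CochainComplex.isStrictlyGE_iff]
    intro i hi
    exact (restrictFunctor j).map_isZero (J.isZero_of_isStrictlyGE c i hi)
  exact CochainComplex.isKInjective_of_injective _ c

end Gamma

section Triangle

variable (J : CochainComplex X.Modules ℤ) (hJ : ∀ n, Injective (J.X n))

/-- The connecting map of `Γ_Z J ⟶ J ⟶ j_* j^* J`. -/
noncomputable def δ : DerivedCategory.Q.obj ((Pc (pushforward j)).obj ((Rc (restrictFunctor j)).obj J)) ⟶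
    (DerivedCategory.Q.obj (S j J).X₁)⟦(1 : ℤ)⟧ :=
  DerivedCategory.triangleOfSESδ (shortExact_S j J hJ)

theorem distTriang_S : Triangle.mk (DerivedCategory.Q.map (S j J).f)
    (DerivedCategory.Q.map ((ad (restrictFunctor j) (pushforward j) (restrictAdjunction j)).unit.app J))
    (δ j J hJ) ∈ distTriang (DCoh.D X) :=
  DerivedCategory.triangleOfSES_distinguished (shortExact_S j J hJ)

end Triangle

variable [IsNoetherian U] [IsNoetherian X] (K : ℕᵒᵖ ⥤ CochainComplex X.Modules ℤ)
  (hK : ∀ (n : ℕ) (i : ℤ), Coh.IsQCoh ((K.obj (op n)).X i))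
  (b : ℤ) (hb : ∀ (n : ℕ) (i : ℤ), b < i → IsZero ((K.obj (op n)).X i))
  (hkill : ∀ (M : X.Modules), onZ j M → ∀ (i : ℤ) (n : ℕ) (f : (K.obj (op n)).X i ⟶ M),
    ∃ (m : ℕ) (hnm : n ≤ m), (K.map (homOfLE hnm).op).f i ≫ f = 0)
  (J : CochainComplex X.Modules ℤ) (hJ : ∀ n, Injective (J.X n)) (c : ℤ) [hJ' : J.IsStrictlyGE c]
  (hJc : ∀ n, Coh.IsQCoh (J.homology n))

include hK hb hkill hJ hJ' hJc

theorem noMap_gamma : NoMap (K ⋙ DerivedCategory.Q) (DerivedCategory.Q.obj (S j J).X₁) :=
  have := isGE_gamma j J c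
  Dev.noMap j K hK b hb hkill _ c (coh_gamma j J hJ c hJc)

theorem noMap_gamma_shift :
    NoMap (K ⋙ DerivedCategory.Q) ((DerivedCategory.Q.obj (S j J).X₁)⟦(1 : ℤ)⟧) := by
  have := isGE_gamma j J c
  have h : ((DerivedCategory.Q.obj (S j J).X₁)⟦(1 : ℤ)⟧).IsGE (c - 1) :=
    DerivedCategory.TStructure.t.isGE_shift _ c 1 (c - 1)
  exact Dev.noMap j K hK b hb hkill _ (c - 1) ((coh (onZ j)).le_shift 1 _ (coh_gamma j J hJ c hJc))

/-- Surjectivity. -/
theorem surj {F : CochainComplex X.Modules ℤ} (ι : K.obj (op 0) ⟶ F)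
    (α : (restrictFunctor j).mapDerivedCategory.obj (DerivedCategory.Q.obj F) ⟶
      (restrictFunctor j).mapDerivedCategory.obj (DerivedCategory.Q.obj J)) :
    ∃ (n : ℕ) (φ : DerivedCategory.Q.obj (K.obj (op n)) ⟶ DerivedCategory.Q.obj J),
      (restrictFunctor j).mapDerivedCategory.map
        (DerivedCategory.Q.map (K.map (homOfLE (Nat.zero_le n)).op ≫ ι)) ≫ α =
      (restrictFunctor j).mapDerivedCategory.map φ := by
  obtain ⟨a, ha⟩ := exists_lift (restrictFunctor j) (pushforward j) (restrictAdjunction j) J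
    (isKInjective_restrict j J hJ c) F α
  obtain ⟨n, φ, h⟩ := exists_map_eq (restrictFunctor j).mapDerivedCategory _ _ _ (distTriang_S j J hJ)
    (K ⋙ DerivedCategory.Q) (DerivedCategory.Q.map ι)
    (ρ (restrictFunctor j) (pushforward j) (restrictAdjunction j) J)
    (unit_ρ (restrictFunctor j) (pushforward j) (restrictAdjunction j) J)
    (noMap_gamma_shift j K hK b hb hkill J hJ c hJc) a
  subst ha
  refine ⟨n, φ, ?_⟩
  rw [DerivedCategory.Q.map_comp]
  exact h

/-- Injectivity. -/
theorem inj (hJk : J.IsKInjective) (n : ℕ)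
    (φ ψ : DerivedCategory.Q.obj (K.obj (op n)) ⟶ DerivedCategory.Q.obj J)
    (hφψ : (restrictFunctor j).mapDerivedCategory.map φ = (restrictFunctor j).mapDerivedCategory.map ψ) :
    ∃ (m : ℕ) (hnm : n ≤ m), DerivedCategory.Q.map (K.map (homOfLE hnm).op) ≫ φ =
      DerivedCategory.Q.map (K.map (homOfLE hnm).op) ≫ ψ :=
  exists_eq_of_map_eq (restrictFunctor j).mapDerivedCategory _ _ _ (distTriang_S j J hJ)
    (K ⋙ DerivedCategory.Q) (noMap_gamma j K hK b hb hkill J hJ c hJc) n
    (fun θ hθ => comp_unit_eq_zero (restrictFunctor j) (pushforward j) (restrictAdjunction j) J hJk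
      (isKInjective_restrict j J hJ c) _ θ hθ) φ ψ hφψ

end Groth.Agent.Dual.H367.Main
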